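import Cfsg.Agent.Lib.Helper22.Iso.Defs
import Cfsg.Agent.Lib.Helper22.Fstar
import Cfsg.Agent.Lib.Helper22.CharP
import Cfsg.Agent.Lib.Helper55.Cores

/-! ISO (S3044 / S3045) package `PkgFstarLay`: if `Y ⊴ G` and `Y / O_p(Y)` equals its layer, then the image of
`Y` in `G / O_p(G)` lies in `F*(G / O_p(G))`. -/

universe u

namespace Cfsg.Agent.Lib.Helper65.Iso

/-- For `Y ⊴ G`, `O_p(Y)` (viewed in `G`) lies in `O_p(G)`. -/
theorem pCore_map_subtype_le {G : Type u} [Group G] {p : ℕ} [Fact p.Prime] (Y : Subgroup G)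
    [Y.Normal] : (Cfsg.pCore p ↥Y).map Y.subtype ≤ Cfsg.pCore p G := by
  have hchar : (Cfsg.pCore p ↥Y).Characteristic := Cfsg.Agent.Lib.Helper22.pCore_char p ↥Y
  have hn : ((Cfsg.pCore p ↥Y).map Y.subtype).Normal := ConjAct.normal_of_characteristic_of_normal
  refine Cfsg.Agent.Lib.Helper55.le_pCore hn ?_
  exact (Cfsg.Agent.Lib.Helper55.pCore_isPGroup p ↥Y).map Y.subtype

/-- For `Y ⊴ G`, `O_p(G) ∩ Y` lies in `O_p(Y)`. -/
theorem pCore_subgroupOf_le {G : Type u} [Group G] {p : ℕ} [Fact p.Prime] (Y : Subgroup G)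
    [(Cfsg.pCore p G).Normal] : (Cfsg.pCore p G).subgroupOf Y ≤ Cfsg.pCore p ↥Y := by
  have hn : ((Cfsg.pCore p G).subgroupOf Y).Normal := inferInstance
  refine Cfsg.Agent.Lib.Helper55.le_pCore hn ?_
  exact (Cfsg.Agent.Lib.Helper55.pCore_isPGroup p G).comap_of_injective Y.subtype
    Y.subtype_injective

theorem pkgFstarLay : Cfsg.Agent.Lib.Helper22.Iso.PkgFstarLay.{u} := by
  intro G _ _ p _ Y _ _ hRn hlay
  -- the image of `Y`
  let π : G →* G ⧸ Cfsg.pCore p G := QuotientGroup.mk' (Cfsg.pCore p G)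
  have hπs : Function.Surjective π := QuotientGroup.mk'_surjective (Cfsg.pCore p G)
  obtain ⟨Yt, hYt⟩ : ∃ Yt : Subgroup (G ⧸ Cfsg.pCore p G), Yt = Y.map π := ⟨_, rfl⟩
  have hYtn : Yt.Normal := by rw [hYt]; exact Subgroup.Normal.map inferInstance π hπs
  have hsub : Yt.IsSubnormal := hYtn.isSubnormal
  -- the restriction of `π` to `Y`
  let f : ↥Y →* ↥Yt := (π.comp Y.subtype).codRestrict Yt (fun y => by
    rw [hYt]; exact Subgroup.mem_map_of_mem π y.2)
  have hfs : Function.Surjective f := by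
    rintro ⟨z, hz⟩
    rw [hYt] at hz
    obtain ⟨y, hy, rfl⟩ := hz
    exact ⟨⟨y, hy⟩, Subtype.ext rfl⟩
  have hker : f.ker = Cfsg.pCore p ↥Y := by
    apply le_antisymm
    · intro y hy
      refine pCore_subgroupOf_le Y ?_
      rw [Subgroup.mem_subgroupOf]
      have h1 : π (y : G) = 1 := by
        have := congrArg Subtype.val (MonoidHom.mem_ker.mp hy)
        simpa [f] using this
      exact (QuotientGroup.eq_one_iff _).mp h1
    · intro y hy
      rw [MonoidHom.mem_ker]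
      apply Subtype.ext
      have h1 : (y : G) ∈ Cfsg.pCore p G :=
        pCore_map_subtype_le Y (Subgroup.mem_map_of_mem Y.subtype hy)
      have h2 : π (y : G) = 1 := (QuotientGroup.eq_one_iff _).mpr h1
      simpa [f] using h2
  let e : ↥Y ⧸ Cfsg.pCore p ↥Y ≃* ↥Yt :=
    (QuotientGroup.quotientMulEquivOfEq hker.symm).trans
      (QuotientGroup.quotientKerEquivOfSurjective f hfs)
  have h1 : Cfsg.layer ↥Yt = ⊤ := by
    rw [← Cfsg.Agent.Lib.Helper22.layer_map_equiv e, hlay]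
    exact Subgroup.map_top_of_surjective _ e.surjective
  have h2 : Yt ≤ Cfsg.layer (G ⧸ Cfsg.pCore p G) := by
    have := Cfsg.Agent.Lib.Helper22.layer_map_subtype_le_of_subnormal hsub
    rw [h1, ← MonoidHom.range_eq_map, Subgroup.range_subtype] at this
    exact this
  have h3 : Yt ≤ Cfsg.generalizedFittingSubgroup (G ⧸ Cfsg.pCore p G) := by
    unfold Cfsg.generalizedFittingSubgroup
    exact h2.trans le_sup_left
  rw [← Subgroup.map_le_iff_le_comap]
  rw [hYt] at h3
  exact h3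

example : Cfsg.Agent.Lib.Helper22.Iso.PkgFstarLay.{0} := pkgFstarLay
example : Cfsg.Agent.Lib.Helper22.Iso.PkgFstarLay.{3} := pkgFstarLay

end Cfsg.Agent.Lib.Helper65.Iso
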